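import Cfsg.Agent.Glaub.Inside
import Cfsg.Agent.Glaub.Solvable
import Cfsg.Agent.H81.RealOver

set_option autoImplicit false

/-! Real characters invariant under a coprime `p`-group. -/

namespace Cfsg.Agent.H81

open Cfsg Cfsg.Agent.CharBase Cfsg.Agent.Glaub
open scoped ComplexConjugate

section
universe u v
variable {K : Type u} [Group K] [Fintype K] {A : Type v} [Group A] [Finite A] (φ : A →* MulAut K)

/-- complex conjugate of an irreducible character -/
noncomputable def conjIrr {H : Type u} [Group H] [Finite H] (χ : IrrCharacter H) : IrrCharacter H :=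
  ⟨fun g => conj ((χ : H → ℂ) g), by
    have := Fintype.ofFinite H
    exact isIrrCharacter_conj χ.2⟩

theorem conjIrr_eq_iff {H : Type u} [Group H] [Finite H] (χ : IrrCharacter H) :
    conjIrr χ = χ ↔ ∀ g, ((χ : H → ℂ) g).im = 0 := by
  rw [Subtype.ext_iff, funext_iff]
  exact forall_congr' (fun g => Complex.conj_eq_iff_im)

theorem classInner_conj_conj {C : Type u} [Group C] [Fintype C] (f g : C → ℂ) {m : ℕ} (h : classInner f g = m) :
    classInner (fun x => conj (f x)) (fun x => conj (g x)) = m := by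
  have h1 : conj (classInner f g) = m := by rw [h]; simp
  rw [← h1]
  unfold classInner
  rw [map_mul, map_inv₀, map_natCast, map_sum]
  congr 1
  exact Finset.sum_congr rfl (fun n _ => by rw [map_mul])

theorem card_real_inv {p : ℕ} (hp : p.Prime) (hA : IsPGroup p A) (hpK : ¬ p ∣ Nat.card K) :
    Nat.card {θ : IrrCharacter K // (∀ k, ((θ : K → ℂ) k).im = 0) ∧ Inv φ (θ : K → ℂ)} =
      Nat.card (RealIrr (fixSub φ)) := by
  classical
  have hFC : Fintype (fixSub φ) := Fintype.ofFinite _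
  have hfix := isFix_fixSub φ
  have hex : ∀ θ : {θ : IrrCharacter K // (∀ k, ((θ : K → ℂ) k).im = 0) ∧ Inv φ (θ : K → ℂ)},
      ∃ β : IrrCharacter (fixSub φ), ∃ m : ℕ, classInner (res (fixSub φ).subtype (θ.1 : K → ℂ)) (β : fixSub φ → ℂ) = m ∧ ¬ p ∣ m ∧
      ∀ (γ : IrrCharacter (fixSub φ)) (n : ℕ), classInner (res (fixSub φ).subtype (θ.1 : K → ℂ)) (γ : fixSub φ → ℂ) = n → γ ≠ β →
        p ∣ n := by
    intro θ
    obtain ⟨β, m, h1, h2, -, h3⟩ := existsUnique_below hfix hp hA hpK θ.1 θ.2.2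
    exact ⟨β, m, h1, h2, h3⟩
  choose f m hm hpm huniq using hex
  have hconjres : ∀ θ : IrrCharacter K, (∀ k, ((θ : K → ℂ) k).im = 0) →
      (fun x => conj (res (fixSub φ).subtype (θ : K → ℂ) x)) = res (fixSub φ).subtype (θ : K → ℂ) := by
    intro θ hθ
    funext x
    exact Complex.conj_eq_iff_im.2 (hθ _)
  have hreal : ∀ θ, ∀ g, ((f θ : fixSub φ → ℂ) g).im = 0 := by
    intro θ
    rw [← conjIrr_eq_iff]
    by_contra hne
    have h1 := classInner_conj_conj _ _ (hm θ)
    rw [hconjres θ.1 θ.2.1] at h1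
    exact hpm θ (huniq θ (conjIrr (f θ)) (m θ) h1 hne)
  refine Nat.card_congr (Equiv.ofBijective (fun θ => (⟨f θ, hreal θ⟩ : RealIrr (fixSub φ))) ⟨?_, ?_⟩)
  · intro θ θ' h
    have h1 : f θ = f θ' := congrArg Subtype.val h
    apply Subtype.ext
    refine eq_of_common hfix hp hA hpK θ.1 θ'.1 θ.2.2 θ'.2.2 (f θ) (m θ) (m θ') (hm θ) (hpm θ) ?_ (hpm θ')
    rw [h1]; exact hm θ'
  · rintro ⟨β, hβ⟩
    obtain ⟨χ, hinv, n, hn, hpn⟩ := exists_over_fixed hfix hp hA hpK β
    have hinv' : Inv φ ((conjIrr χ : IrrCharacter K) : K → ℂ) := by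
      intro a g
      change conj ((χ : K → ℂ) (φ a g)) = conj ((χ : K → ℂ) g)
      rw [hinv a g]
    have h1 := classInner_conj_conj _ _ hn
    have hβ' : (fun x => conj ((β : fixSub φ → ℂ) x)) = (β : fixSub φ → ℂ) := by
      funext x; exact Complex.conj_eq_iff_im.2 (hβ x)
    rw [hβ'] at h1
    have hχ : conjIrr χ = χ :=
      eq_of_common hfix hp hA hpK (conjIrr χ) χ hinv' hinv β n n h1 hpn hn hpn
    rw [conjIrr_eq_iff] at hχ
    refine ⟨⟨χ, hχ, hinv⟩, ?_⟩
    apply Subtype.ext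
    by_contra hne
    exact hpn (huniq ⟨χ, hχ, hinv⟩ β n hn (fun h => hne h.symm))

theorem isConj_inv_inv {H : Type*} [Group H] {x y : H} (h : IsConj x y) : IsConj x⁻¹ y⁻¹ := by
  obtain ⟨c, hc⟩ := isConj_iff.1 h
  rw [isConj_iff]
  exact ⟨c, by rw [← hc]; group⟩

theorem card_real_inv_class {p : ℕ} (hp : p.Prime) (hA : IsPGroup p A) (hpK : ¬ p ∣ Nat.card K) :
    Nat.card {C : ConjClasses K // (∀ k, ConjClasses.mk k = C → IsConj k k⁻¹) ∧ InvClass φ C} =
      Nat.card {D : ConjClasses (fixSub φ) // ∀ g, ConjClasses.mk g = D → IsConj g⁻¹ g} := by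
  classical
  have hfix := isFix_fixSub φ
  symm
  have hval : ∀ x y : fixSub φ, IsConj x y → IsConj (x : K) (y : K) := by
    intro x y hxy
    obtain ⟨c, hc⟩ := isConj_iff.1 hxy
    exact isConj_iff.2 ⟨c, congrArg Subtype.val hc⟩
  have hmap : ∀ (a : A) (x y : K), IsConj x y → IsConj (φ a x) (φ a y) := by
    intro a x y hxy
    obtain ⟨c, hc⟩ := isConj_iff.1 hxy
    exact isConj_iff.2 ⟨φ a c, by rw [← hc, map_mul, map_mul, map_inv]⟩
  refine Nat.card_congr (Equiv.ofBijective (fun D => ⟨ConjClasses.map (fixSub φ).subtype D.1, ?_⟩) ⟨?_, ?_⟩)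
  · obtain ⟨D, hD⟩ := D
    obtain ⟨d, rfl⟩ := ConjClasses.exists_rep D
    constructor
    · intro k hk
      have h1 : IsConj k (d : K) := ConjClasses.mk_eq_mk_iff_isConj.1 hk
      have h2 : IsConj (d : K) (d : K)⁻¹ := hval _ _ (hD d rfl).symm
      exact h1.trans (h2.trans (isConj_inv_inv h1.symm))
    · intro a g hg
      have h1 : IsConj g (d : K) := ConjClasses.mk_eq_mk_iff_isConj.1 hg
      have h2 := hmap a _ _ h1
      rw [d.2 a] at h2
      exact ConjClasses.mk_eq_mk_iff_isConj.2 h2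
  · rintro ⟨D, hD⟩ ⟨D', hD'⟩ h
    obtain ⟨d, rfl⟩ := ConjClasses.exists_rep D
    obtain ⟨d', rfl⟩ := ConjClasses.exists_rep D'
    have h1 : ConjClasses.mk (d : K) = ConjClasses.mk (d' : K) := congrArg Subtype.val h
    apply Subtype.ext
    exact ConjClasses.mk_eq_mk_iff_isConj.2 (isConj_of_isConj hfix hp hA hpK (ConjClasses.mk_eq_mk_iff_isConj.1 h1))
  · rintro ⟨C, hC1, hC2⟩
    obtain ⟨k, rfl⟩ := ConjClasses.exists_rep C
    obtain ⟨c, hc⟩ := exists_fixed_in_class hfix hp hA hpK k (fun a =>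
      (ConjClasses.mk_eq_mk_iff_isConj.1 (hC2 a k rfl)).symm)
    have hc' : IsConj k (c : K) := hc
    refine ⟨⟨ConjClasses.mk c, fun g hg => ?_⟩, Subtype.ext (ConjClasses.mk_eq_mk_iff_isConj.2 hc'.symm)⟩
    have hg' : IsConj g c := ConjClasses.mk_eq_mk_iff_isConj.1 hg
    have h1 : IsConj (c : K) (c : K)⁻¹ := hc'.symm.trans ((hC1 k rfl).trans (isConj_inv_inv hc'))
    have h2 : IsConj c c⁻¹ := isConj_of_isConj hfix hp hA hpK (c := c) (c' := c⁻¹) h1
    exact ((hg'.trans h2).trans (isConj_inv_inv hg'.symm)).symm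

/-- the number of real `P`-invariant characters equals the number of real `P`-invariant classes -/
theorem card_real_inv_eq {p : ℕ} (hp : p.Prime) (hA : IsPGroup p A) (hpK : ¬ p ∣ Nat.card K) :
    Nat.card {θ : IrrCharacter K // (∀ k, ((θ : K → ℂ) k).im = 0) ∧ Inv φ (θ : K → ℂ)} =
      Nat.card {C : ConjClasses K // (∀ k, ConjClasses.mk k = C → IsConj k k⁻¹) ∧ InvClass φ C} := by
  rw [card_real_inv φ hp hA hpK, card_real_irr, card_real_inv_class φ hp hA hpK]

/-- if all real characters are invariant, then all real elements are conjugate to fixed elements -/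
theorem exists_fixed_of_real {p : ℕ} (hp : p.Prime) (hA : IsPGroup p A) (hpK : ¬ p ∣ Nat.card K)
    (hall : ∀ θ : IrrCharacter K, (∀ k, ((θ : K → ℂ) k).im = 0) → Inv φ (θ : K → ℂ)) (k : K) (hk : IsConj k k⁻¹) :
    ∃ c : K, IsConj k c ∧ ∀ a, φ a c = c := by
  classical
  have h1 := card_real_inv_eq φ hp hA hpK
  have h2 : Nat.card {θ : IrrCharacter K // (∀ k, ((θ : K → ℂ) k).im = 0) ∧ Inv φ (θ : K → ℂ)} = Nat.card (RealIrr K) :=
    Nat.card_congr (Equiv.subtypeEquivRight (fun θ => ⟨fun h => h.1, fun h => ⟨h, hall θ h⟩⟩))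
  have hfin : Finite (ConjClasses K) := Quotient.finite _
  have h3 : Nat.card (RealIrr K) = Nat.card {C : ConjClasses K // ∀ k, ConjClasses.mk k = C → IsConj k k⁻¹} := by
    rw [card_real_irr]
    exact Nat.card_congr (Equiv.subtypeEquivRight (fun C => forall_congr' (fun g => imp_congr_right (fun _ => isConj_comm))))
  have h4 : {C : ConjClasses K | (∀ k, ConjClasses.mk k = C → IsConj k k⁻¹) ∧ InvClass φ C} =
      {C : ConjClasses K | ∀ k, ConjClasses.mk k = C → IsConj k k⁻¹} := by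
    apply Set.eq_of_subset_of_ncard_le (fun C hC => hC.1) _ (Set.toFinite _)
    have h5 : Nat.card {C : ConjClasses K // ∀ k, ConjClasses.mk k = C → IsConj k k⁻¹} =
        Nat.card {C : ConjClasses K // (∀ k, ConjClasses.mk k = C → IsConj k k⁻¹) ∧ InvClass φ C} := by
      rw [← h3, ← h2, h1]
    exact h5.le
  have h5 : ConjClasses.mk k ∈ {C : ConjClasses K | ∀ k, ConjClasses.mk k = C → IsConj k k⁻¹} := by
    intro g hg
    have h6 : IsConj g k := ConjClasses.mk_eq_mk_iff_isConj.1 hg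
    exact h6.trans (hk.trans (isConj_inv_inv h6.symm))
  rw [← h4] at h5
  obtain ⟨c, hc⟩ := exists_fixed_in_class (isFix_fixSub φ) hp hA hpK k (fun a =>
      (ConjClasses.mk_eq_mk_iff_isConj.1 (h5.2 a k rfl)).symm)
  exact ⟨c, hc, c.2⟩

end

end Cfsg.Agent.H81
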