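import Cfsg.Agent.Suz2.FieldA

/-! Field part of piece P8c (Martineau). -/

set_option autoImplicit false

namespace Cfsg.Agent.H81.MtP8cF

open Cfsg.Agent.Suz2

variable {F : Type*} [Field F]

theorem prod_coeff [Fintype (F ≃+* F)] {k : (F ≃+* F) × (F ≃+* F) → F}
    (h : ∀ a x : F, ∑ p, k p * (p.1 a * p.2 x) = 0) (p : (F ≃+* F) × (F ≃+* F)) : k p = 0 := by
  have h1 : ∀ (σ : F ≃+* F) (a : F), ∑ τ : F ≃+* F, k (τ, σ) * τ a = 0 := by
    intro σ a
    apply aut_coeff (c := fun σ => ∑ τ : F ≃+* F, k (τ, σ) * τ a) _ σ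
    intro x
    have h2 := h a x
    rw [Fintype.sum_prod_type_right] at h2
    rw [← h2]
    apply Finset.sum_congr rfl
    intro σ _
    rw [Finset.sum_mul]
    apply Finset.sum_congr rfl
    intro τ _
    ring
  exact aut_coeff (h1 p.2) p.1

theorem core [Finite F] [CharP F 2] {κ0 : F} (h0 : κ0 ≠ 0) (h1 : κ0 ≠ 1) (θ : F ≃+* F)
    (hθ : ∀ x, θ (θ x) = x * x) (B : F →+ F →+ F)
    (hK : ∀ k a x : F, k ≠ 0 → B (k * a) (k * θ.symm k * x) = k * θ.symm k * B a x)
    (χ : F → F →+ F) (d y : F → F → F)
    (h : ∀ a t x, B a (t * x) + a * d t x = χ t (θ a * x) + t * y a x) :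
    ∀ a x, B a x = a * B 1 x := by
  classical
  have hfin := finite_aut F
  let _ : Fintype (F ≃+* F) := Fintype.ofFinite _
  have hc2 : ∀ z : F, z + z = 0 := fun z => CharTwo.add_self_eq_zero z
  obtain ⟨c, hc⟩ := biadd_expand B
  choose e he using fun t => add_expand (χ t)
  -- equivariance
  have hE : ∀ p, c p ≠ 0 → ∀ k : F, k ≠ 0 → p.1 k * p.2 (k * θ.symm k) = k * θ.symm k := by
    intro p hp k hk
    have h2 := prod_coeff (k := fun p => c p * (p.1 k * p.2 (k * θ.symm k)) - k * θ.symm k * c p) (by
      intro a x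
      have h3 := hK k a x hk
      rw [hc, hc, ← sub_eq_zero, Finset.mul_sum, ← Finset.sum_sub_distrib] at h3
      rw [← h3]
      apply Finset.sum_congr rfl
      intro q _
      rw [map_mul q.1 k a, map_mul q.2 (k * θ.symm k) x]
      ring) p
    have h3 : c p * (p.1 k * p.2 (k * θ.symm k) - k * θ.symm k) = 0 := by
      rw [← h2]; ring
    exact sub_eq_zero.1 ((mul_eq_zero.1 h3).resolve_left hp)
  -- elimination
  have hS : ∀ a t x, B a (t * x) + a * B 1 (t * x) + a * χ t x + χ t (θ a * x) =
      t * (B a x + a * B 1 x + a * χ 1 x + χ 1 (θ a * x)) := by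
    intro a t x
    have e1 := h a t x
    have e2 := h 1 t x
    have e3 := h a 1 x
    have e4 := h 1 1 x
    simp only [map_one, one_mul] at e2 e3 e4
    have h2 : (2 : F) = 0 := CharTwo.two_eq_zero
    linear_combination e1 + a * e2 + t * e3 + t * a * e4 + (a * χ t x + a * t * y 1 x - a * t * B 1 x -
      a * t * d 1 x - a * d t x + χ t (θ a * x) + t * y a x - t * B a x) * h2
  -- coefficient of `σ x`
  obtain ⟨P, hP⟩ : ∃ P : (F ≃+* F) → F → F, ∀ σ a, P σ a = ∑ τ : F ≃+* F, c (τ, σ) * τ a := ⟨_, fun _ _ => rfl⟩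
  obtain ⟨Q, hQ⟩ : ∃ Q : (F ≃+* F) → F, ∀ σ, Q σ = P σ 1 := ⟨_, fun _ => rfl⟩
  have hB : ∀ a x, B a x = ∑ σ : F ≃+* F, P σ a * σ x := by
    intro a x
    rw [hc, Fintype.sum_prod_type_right]
    apply Finset.sum_congr rfl
    intro σ _
    rw [hP, Finset.sum_mul]
    apply Finset.sum_congr rfl
    intro τ _
    ring
  have hS2 : ∀ (σ : F ≃+* F) (a t : F), (σ t + t) * (P σ a + a * Q σ) =
      (a + σ (θ a)) * (t * e 1 σ + e t σ) := by
    intro σ a t
    have h3 := aut_coeff (c := fun σ => P σ a * σ t +
      a * Q σ * σ t + a * e t σ + e t σ * σ (θ a) -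
      t * (P σ a + a * Q σ + a * e 1 σ + e 1 σ * σ (θ a))) (by
      intro x
      have h4 := hS a t x
      rw [hB, hB, hB, hB, he, he, he, he, ← sub_eq_zero] at h4
      rw [← h4]
      simp only [Finset.mul_sum, ← Finset.sum_add_distrib, ← Finset.sum_sub_distrib]
      apply Finset.sum_congr rfl
      intro σ _
      rw [map_mul σ t x, map_mul σ (θ a) x, hQ]
      ring) σ
    have h2 : (2 : F) = 0 := CharTwo.two_eq_zero
    linear_combination h3 + (t * P σ a + t * a * Q σ - a * e t σ - e t σ * σ (θ a)) * h2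
  -- vanishing
  have hv : ∀ p, c p ≠ 0 → p.1 = RingEquiv.refl F := by
    rintro ⟨φ, σ⟩ hp
    by_contra hne
    have hE1 := hE _ hp
    simp only at hne hE1
    by_cases hσ : σ = RingEquiv.refl F
    · subst hσ
      apply h1
      have h3 := hE1 κ0 h0
      have h4 : κ0 * θ.symm κ0 ≠ 0 := mul_ne_zero h0 (by simpa using h0)
      have h5 : φ κ0 = 1 := by
        have : (φ κ0 - 1) * (κ0 * θ.symm κ0) = 0 := by
          rw [sub_mul, one_mul, sub_eq_zero]
          exact h3
        exact sub_eq_zero.1 ((mul_eq_zero.1 this).resolve_right h4)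
      exact φ.injective (by rw [h5, map_one])
    · obtain ⟨t, ht⟩ : ∃ t, σ t + t ≠ 0 := by
        by_contra hcon
        push Not at hcon
        apply hσ
        ext t
        have := hcon t
        rw [RingEquiv.refl_apply]
        exact (CharTwo.add_eq_zero).1 this
      by_cases hφ : φ = θ.trans σ
      · apply hσ
        subst hφ
        -- σ (θ z)^2 = z σ z
        have h3 : ∀ z : F, z ≠ 0 → σ (θ z) * σ (θ z) = z * σ z := by
          intro z hz
          have hθz : θ z ≠ 0 := by simpa using hz
          have hy : θ z / z ≠ 0 := div_ne_zero hθz hz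
          have h4 := hE1 (θ (θ z / z)) (by simpa using hy)
          rw [RingEquiv.symm_apply_apply, RingEquiv.trans_apply, hθ, map_div₀, hθ] at h4
          have h5 : z * z / θ z * (θ z / z) = z := by field_simp
          rw [h5, ← map_mul] at h4
          have h6 : θ z / z * (θ z / z) * z = θ z * θ z / z := by field_simp
          rw [h6, map_div₀, map_mul] at h4
          have hσz : σ z ≠ 0 := by simpa using hz
          rw [div_eq_iff hσz] at h4
          exact h4
        ext z
        rw [RingEquiv.refl_apply]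
        by_cases hz : z = 0
        · rw [hz, map_zero]
        by_cases hz1 : z + 1 = 0
        · have : z = 1 := (CharTwo.add_eq_zero).1 hz1
          rw [this, map_one]
        have e1 := h3 z hz
        have e2 := h3 (z + 1) hz1
        rw [map_add, map_one, map_add, map_one, map_add, map_one] at e2
        have h2 : (2 : F) = 0 := CharTwo.two_eq_zero
        linear_combination e1 - e2 + (σ (θ z) - z) * h2 
      · have h3 := aut_coeff (c := fun τ => (σ t + t) * c (τ, σ) +
            ((if τ = RingEquiv.refl F then (σ t + t) * Q σ - (t * e 1 σ + e t σ) else 0) +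
            (if τ = θ.trans σ then -(t * e 1 σ + e t σ) else 0))) (by
          intro a
          have h4 := hS2 σ a t
          simp only [add_mul, ite_mul, zero_mul, Finset.sum_add_distrib, Finset.sum_ite_eq', Finset.mem_univ,
            if_true, RingEquiv.trans_apply, RingEquiv.refl_apply]
          have h5 : ∑ τ : F ≃+* F, σ t * c (τ, σ) * τ a + ∑ τ : F ≃+* F, t * c (τ, σ) * τ a =
              (σ t + t) * P σ a := by
            rw [hP, add_mul, Finset.mul_sum, Finset.mul_sum]
            congr 1 <;> exact Finset.sum_congr rfl (fun τ _ => by ring)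
          rw [h5]
          linear_combination h4) φ
        simp only [if_neg hne, if_neg hφ, add_zero] at h3
        exact hp ((mul_eq_zero.1 h3).resolve_left ht)
  intro a x
  rw [hc, hc, Finset.mul_sum]
  apply Finset.sum_congr rfl
  intro p _
  by_cases hp : c p = 0
  · rw [hp]; ring
  · rw [hv p hp]
    simp only [RingEquiv.refl_apply]
    ring

end Cfsg.Agent.H81.MtP8cF
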