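import Cfsg.Agent.H71.MtExt
import Cfsg.Agent.H81.MtP8cF

/-! Piece P8c (Martineau, S4351): the vectors `r1 x` can be corrected to `S`-fixed vectors. -/

set_option autoImplicit false
set_option linter.unusedVariables false

namespace Cfsg.Agent.H81.MtP8c

open Cfsg.Agent.H71.Mt

universe v

variable {X : Type*} [Group X] [Finite X] {F : Type} [Field F] [Fintype F] {θ : F ≃+* F} {S E K : Subgroup X}
  {w s0 : X} {a b κ : X → F}

theorem fix_W (D : SzD θ S E K w s0 a b κ) {W : Type v} [AddCommGroup W] [Module F W] {ρW : Representation F X W}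
    {w1 w2 w3 w4 : W} (NW : Nat4 θ S E K w a b κ (RingEquiv.refl F) ρW w1 w2 w3 w4) {s : X} (hs : s ∈ S)
    (hsE : s ∉ E) {δ : W} (h : ρW s δ = δ) : ∃ c : F, δ = c • w1 := by
  obtain ⟨x1, x2, x3, x4, rfl⟩ := NW.span δ
  obtain ⟨e, he⟩ := NW.s3 s hs
  obtain ⟨f, g, hfg⟩ := NW.s4 s hs
  have ha : a s ≠ 0 := fun h0 => hsE ((D.a_zero s hs).1 h0)
  simp only [map_add, map_smul, NW.s1 s hs, NW.s2 s hs, he, hfg, RingEquiv.refl_apply] at h
  have h5 : (x2 * a s + x3 * e + x4 * g) • w1 + (x3 * θ (a s) + x4 * f) • w2 + (x4 * a s) • w3 + (0 : F) • w4 =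
      0 := by
    rw [← sub_eq_zero.2 h]
    module
  obtain ⟨e1, e2, e3, -⟩ := NW.indep _ _ _ _ h5
  have hx4 : x4 = 0 := (mul_eq_zero.1 e3).resolve_right ha
  have hθa : θ (a s) ≠ 0 := by simpa using ha
  have hx3 : x3 = 0 := by
    rw [hx4, zero_mul, add_zero] at e2
    exact (mul_eq_zero.1 e2).resolve_right hθa
  have hx2 : x2 = 0 := by
    rw [hx4, hx3, zero_mul, zero_mul, add_zero, add_zero] at e1
    exact (mul_eq_zero.1 e1).resolve_right ha
  exact ⟨x1, by rw [hx2, hx3, hx4]; simp⟩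

theorem smul_inj {W R : Type v} [AddCommGroup W] [Module F W] [AddCommGroup R] {ρW : Representation F X W}
    {w1 w2 w3 w4 : W} (NW : Nat4 θ S E K w a b κ (RingEquiv.refl F) ρW w1 w2 w3 w4) {i : W →+ R}
    (hi : Function.Injective i) {c d : F} (h : i (c • w1) = i (d • w1)) : c = d := by
  have h1 := hi h
  have h2 : (c - d) • w1 + (0 : F) • w2 + (0 : F) • w3 + (0 : F) • w4 = 0 := by
    rw [sub_smul, h1]; simp
  exact sub_eq_zero.1 (NW.indep _ _ _ _ h2).1

/-- [P8c] -/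
theorem ext_S (D : SzD θ S E K w s0 a b κ) {R W : Type v} [AddCommGroup R] [Finite R]
    [AddCommGroup W] [Finite W] [Module F W]
    (ρR : X →* AddMonoid.End R) (ρW : Representation F X W)
    {w1 w2 w3 w4 : W} (NW : Nat4 θ S E K w a b κ (RingEquiv.refl F) ρW w1 w2 w3 w4) (i : W →+ R)
    {r1 r2 r3 r4 : F →+ R} (H : ExtD θ S E K a b κ ρR ρW i r1 r2 r3 r4)
    (h1 : ∀ t ∈ E, ∀ x, ρR t (r1 x) = r1 x)
    (h2 : ∀ t ∈ E, ∀ x, ∃ c : F, ρR t (r2 x) = r2 x + i (c • w1))
    (h3 : ∀ t ∈ E, ∀ x, ∃ c d : F, ρR t (r3 x) = r3 x + r1 (b t * x) + i (c • w1 + d • w2)) :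
    ∀ x, ∃ y : W, ∀ s ∈ S, ρR s (r1 x + i y) = r1 x + i y := by
  haveI := D.char
  have hmul : ∀ g h v, ρR (g * h) v = ρR g (ρR h v) := fun g h v => by rw [map_mul]; rfl
  have hneg : ∀ r : R, -r = r := fun r => neg_eq_of_add_eq_zero_left (H.two r)
  have two : (2 : F) = 0 := CharTwo.two_eq_zero
  -- Step A
  have hA : ∀ s x, ∃ c : F, s ∈ S → ρR s (r1 x) = r1 x + i (c • w1) := by
    intro s x
    by_cases hs : s ∈ S
    swap
    · exact ⟨0, fun h => absurd h hs⟩
    by_cases hsE : s ∈ E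
    · exact ⟨0, fun _ => by rw [h1 s hsE x]; simp⟩
    obtain ⟨δ, hδ⟩ := H.s1 s hs x
    have e1 := h1 (s * s) (D.Ssq s hs) x
    rw [hmul, hδ, map_add, hδ, H.eqv, add_assoc] at e1
    have e2 : i δ + i (ρW s δ) = 0 := by
      simpa using e1
    have e3 : ρW s δ = δ := by
      apply H.inj
      have := eq_neg_of_add_eq_zero_right e2
      rw [this, hneg]
    obtain ⟨c, rfl⟩ := fix_W D NW hs hsE e3
    exact ⟨c, fun _ => hδ⟩
  choose Δ hΔ using hA
  choose sa hsa using D.a_surj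
  have hw1 : ∀ s ∈ S, ∀ c : F, ρR s (i (c • w1)) = i (c • w1) := by
    intro s hs c
    rw [H.eqv, map_smul, NW.s1 s hs]
  have hadd : ∀ s x y, s ∈ S → Δ s (x + y) = Δ s x + Δ s y := by
    intro s x y hs
    apply smul_inj NW H.inj
    have e1 := hΔ s (x + y) hs
    rw [map_add, map_add, hΔ s x hs, hΔ s y hs] at e1
    rw [add_smul, map_add]
    have e2 : r1 x + r1 y + i (Δ s (x + y) • w1) = r1 x + r1 y + (i (Δ s x • w1) + i (Δ s y • w1)) := by
      rw [← e1]; abel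
    exact add_left_cancel e2
  have hprod : ∀ s s' x, s ∈ S → s' ∈ S → Δ (s * s') x = Δ s x + Δ s' x := by
    intro s s' x hs hs'
    apply smul_inj NW H.inj
    have e1 := hΔ (s * s') x (S.mul_mem hs hs')
    rw [hmul, hΔ s' x hs', map_add, hΔ s x hs, hw1 s hs] at e1
    rw [add_smul, map_add]
    have e2 : r1 x + i (Δ (s * s') x • w1) = r1 x + (i (Δ s x • w1) + i (Δ s' x • w1)) := by
      rw [← e1]; abel
    exact add_left_cancel e2
  have hE0 : ∀ s x, s ∈ E → Δ s x = 0 := by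
    intro s x hs
    apply smul_inj NW H.inj
    have e1 := hΔ s x (D.ES hs)
    rw [h1 s hs x] at e1
    rw [zero_smul, map_zero]
    simpa using e1
  have hkey : ∀ s x, s ∈ S → Δ s x = Δ (sa (a s)) x := by
    intro s x hs
    obtain ⟨h4, h5⟩ := hsa (a s)
    have h6 : (sa (a s))⁻¹ * s ∈ S := S.mul_mem (S.inv_mem h4) hs
    have h7 : a ((sa (a s))⁻¹ * s) = 0 := by
      have := D.a_mul _ h4 _ h6
      rw [mul_inv_cancel_left, h5] at this
      simpa using this
    have h8 := (D.a_zero _ h6).1 h7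
    have h9 := hprod _ _ x h4 h6
    rw [mul_inv_cancel_left, hE0 _ x h8, add_zero] at h9
    exact h9
  let B : F →+ F →+ F := AddMonoidHom.mk' (fun c => AddMonoidHom.mk' (fun x => Δ (sa c) x)
      (fun x y => hadd _ x y (hsa c).1)) (fun c c' => by
    ext x
    show Δ (sa (c + c')) x = Δ (sa c) x + Δ (sa c') x
    rw [← hprod _ _ x (hsa c).1 (hsa c').1, hkey (sa c * sa c') x (S.mul_mem (hsa c).1 (hsa c').1),
      D.a_mul _ (hsa c).1 _ (hsa c').1, (hsa c).2, (hsa c').2])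
  have hB : ∀ s ∈ S, ∀ x, ρR s (r1 x) = r1 x + i (B (a s) x • w1) := by
    intro s hs x
    rw [hΔ s x hs, hkey s x hs]
    rfl
  have hK : ∀ k c x : F, k ≠ 0 → B (k * c) (k * θ.symm k * x) = k * θ.symm k * B c x := by
    intro k c x hk
    obtain ⟨g, hg, rfl⟩ := D.κ_surj k hk
    obtain ⟨h4, h5⟩ := hsa c
    have e1 : ρR (g * sa c * g⁻¹) (ρR g (r1 x)) = ρR g (ρR (sa c) (r1 x)) := by
      rw [← hmul, ← hmul]
      congr 2
      group
    rw [H.k1 g hg, hB _ (D.KS g hg _ h4), D.Ka g hg _ h4, hB _ h4, h5, map_add, H.k1 g hg, H.eqv,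
      map_smul (ρW g), NW.k1 g hg, RingEquiv.refl_apply, smul_smul] at e1
    have e2 := smul_inj NW H.inj (add_left_cancel e1)
    rw [e2]; ring
  -- chi
  choose et het using D.b_surj
  choose cχ hcχ using fun t x => h2 (et t) (het t).1 x
  let χ : F → F →+ F := fun t => AddMonoidHom.mk' (fun x => cχ t x) (fun x y => by
    apply smul_inj NW H.inj
    have e1 := hcχ t (x + y)
    rw [map_add, map_add, hcχ t x, hcχ t y] at e1
    rw [add_smul, map_add]
    have e2 : r2 x + r2 y + i (cχ t (x + y) • w1) = r2 x + r2 y + (i (cχ t x • w1) + i (cχ t y • w1)) := by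
      rw [← e1]; abel
    exact add_left_cancel e2)
  have hχ : ∀ t x, ρR (et t) (r2 x) = r2 x + i (χ t x • w1) := hcχ
  choose c3 d3 h3' using fun t x => h3 (et t) (het t).1 x
  choose ε hε using fun c => H.s3 (sa c) (hsa c).1
  choose y hy using hε
  choose y1 y2 y3 y4 hy' using fun c x => NW.span (y c x)
  have hrel : ∀ c t x, B c (t * x) + c * d3 t x = χ t (θ c * x) + t * y3 c x + θ t * y4 c x ∧ t * y4 c x = 0 := by
    intro c t x
    obtain ⟨h4, h5⟩ := hsa c
    obtain ⟨h6, h7⟩ := het t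
    have hcom : ρR (sa c) (ρR (et t) (r3 x)) = ρR (et t) (ρR (sa c) (r3 x)) := by
      rw [← hmul, ← hmul, D.Ecen _ h6 _ h4]
    have ha0 : a (et t) = 0 := (D.a_zero _ (D.ES h6)).2 h6
    have eW : ρW (et t) (y c x) = y c x + (y3 c x * t + y4 c x * θ t) • w1 + (y4 c x * t) • w2 := by
      rw [hy' c x]
      simp only [map_add, map_smul, NW.s1 _ (D.ES h6), NW.s2 _ (D.ES h6), NW.e3 _ h6, NW.e4 _ h6, ha0, map_zero,
        zero_smul, h7, RingEquiv.refl_apply, add_zero]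
      module
    rw [h3' t x, hy c x, h7, h5] at hcom
    rw [map_add, map_add, hy c x, hB _ h4, h5, H.eqv, map_add (ρW (sa c)),
      map_smul (ρW (sa c)), map_smul (ρW (sa c)), NW.s1 _ h4, NW.s2 _ h4,
      h5, RingEquiv.refl_apply, map_add (ρR (et t)), map_add (ρR (et t)), map_add (ρR (et t)), h3' t x, h7, hχ, h1 _ h6, H.eqv, eW] at hcom
    have e1 : i (y c x + B c (t * x) • w1 + (c3 t x • w1 + d3 t x • (w2 + c • w1))) =
        i (c3 t x • w1 + d3 t x • w2 + χ t (θ c * x) • w1 + (y c x + (y3 c x * t + y4 c x * θ t) • w1 +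
          (y4 c x * t) • w2)) := by
      rw [map_add, map_add, map_add i _ (y c x + (y3 c x * t + y4 c x * θ t) • w1 +
          (y4 c x * t) • w2), map_add i _ (χ t (θ c * x) • w1)]
      have := sub_eq_zero.2 hcom
      rw [← sub_eq_zero, ← this]
      abel
    have e2 := sub_eq_zero.2 (H.inj e1)
    have e3 : (B c (t * x) + c * d3 t x - (χ t (θ c * x) + t * y3 c x + θ t * y4 c x)) • w1 + (-(t * y4 c x)) • w2 +
        (0 : F) • w3 + (0 : F) • w4 = 0 := by
      rw [← e2]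
      module
    obtain ⟨e4, e5, -, -⟩ := NW.indep _ _ _ _ e3
    exact ⟨sub_eq_zero.1 e4, neg_eq_zero.1 e5⟩
  have hy4 : ∀ c x, y4 c x = 0 := fun c x => by simpa using (hrel c 1 x).2
  obtain ⟨κ0, hκ0, hκ1⟩ : ∃ z : F, z ≠ 0 ∧ z ≠ 1 := by
    by_contra hcon
    push Not at hcon
    classical
    have h4 : (Finset.univ : Finset F) ⊆ {0, 1} := by
      intro z _
      by_cases hz : z = 0
      · simp [hz]
      · simp [hcon z hz]
    have h5 := (Finset.card_le_card h4).trans Finset.card_le_two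
    have h6 := D.card
    rw [Finset.card_univ] at h5
    omega
  have hcore := Cfsg.Agent.H81.MtP8cF.core hκ0 hκ1 θ D.theta B hK χ d3 y3 (fun c t x => by
    rw [(hrel c t x).1, hy4, mul_zero, add_zero])
  intro x
  refine ⟨B 1 x • w2, fun s hs => ?_⟩
  rw [map_add, hB s hs, H.eqv, map_smul (ρW s), NW.s2 s hs, RingEquiv.refl_apply, smul_add, map_add, hcore (a s) x, smul_smul,
    mul_comm (B 1 x) (a s)]
  have := H.two (i ((a s * B 1 x) • w1))
  calc r1 x + i ((a s * B 1 x) • w1) + (i (B 1 x • w2) + i ((a s * B 1 x) • w1))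
      = r1 x + i (B 1 x • w2) + (i ((a s * B 1 x) • w1) + i ((a s * B 1 x) • w1)) := by abel
    _ = r1 x + i (B 1 x • w2) := by rw [this, add_zero]

end Cfsg.Agent.H81.MtP8c
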